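import Mathlib
import Cfsg.Agent.H905.E6T.Base

/-!
# S5927, S5928: the threefold cover of `A₇`, characteristic 2 (helper952)

`Dat ω σ σ' S T a` : abstract situation. `S`, `T` are lifts of `(2 3 4 5 6)`, `(0 1 2)`, `a` of `(0 1)(2 3)`.
`Fam ω σ S T v` : a family of 21 vectors indexed by the pairs of points (a vector fixed by the lift of the
stabilizer `S₅` of the pair `{0,1}` and its conjugates up to cube roots of unity). Pairs:
0: {0,1}; 1-5: {0,2},...,{0,6}; 6-10: {1,2},...,{1,6}; 11-15: {2,3},{3,4},{4,5},{5,6},{6,2};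
16-20: {2,4},{3,5},{4,6},{5,2},{6,3}.
-/

set_option autoImplicit false

namespace Cfsg.Agent.H952.S7

open Cfsg Cfsg.Lie Module
open Cfsg.Agent.ChevalleyStructure.E6Min.Tables
open Cfsg.Agent.H952.F4 (ev es sh cr tf)
open Cfsg.Agent.H163.E6 (TS)
open Cfsg.Agent.H905.E6T (PD)

universe u

/-- `S` on the pairs -/
def sp : Fin 21 → Fin 21 :=
  ![0, 2, 3, 4, 5, 1, 7, 8, 9, 10, 6, 12, 13, 14, 15, 11, 17, 18, 19, 20, 16]

/-- `T` on the pairs -/
def tp : Fin 21 → Fin 21 :=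
  ![6, 0, 7, 8, 9, 10, 1, 11, 16, 19, 15, 2, 12, 13, 14, 5, 3, 17, 18, 4, 20]

/-- exponents for `T` -/
def nt : Fin 21 → ℕ := ![0, 0, 2, 0, 0, 2, 0, 0, 0, 0, 0, 1, 0, 2, 0, 1, 0, 1, 1, 0, 2]

/-- monomial families -/
structure Fam {F : Type u} [Field F] {G : Type*} [Group G] (ω : F) (σ : Representation F G (I27 → F)) (S T : G)
    (v : Fin 21 → I27 → F) : Prop where
  s : ∀ p, σ S (v p) = v (sp p)
  t : ∀ p, σ T (v p) = ω ^ nt p • v (tp p)

/-- the vectors fixed by `S` and `a` -/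
def X {F : Type u} [Field F] {G : Type*} [Group G] (σ : Representation F G (I27 → F)) (S a : G) :
    Submodule F (I27 → F) := es (σ S) 1 ⊓ es (σ a) 1

/-- the element of order 3 normalizing `S T` -/
def yw {G : Type*} [Group G] (S T : G) : G := T * S⁻¹ * S⁻¹ * T⁻¹ * S⁻¹ * T * S

/-- the vectors fixed by `S T` and `yw S T` -/
def VD {F : Type u} [Field F] {G : Type*} [Group G] (σ : Representation F G (I27 → F)) (S T : G) :
    Submodule F (I27 → F) := es (σ (S * T)) 1 ⊓ es (σ (yw S T)) 1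

/-- half of the situation -/
structure Half {F : Type u} [Field F] {G : Type*} [Group G] (ω : F) (σ : Representation F G (I27 → F)) (S T a : G) :
    Prop where
  /-- `a` is `T S T⁻¹ S⁻¹ T` up to a scalar -/
  ha : ∀ v, σ (T * S * T⁻¹ * S⁻¹ * T) v = ω • σ a v
  /-- the families -/
  fam : ∀ v, σ S v = v → σ a v = v → ∃ f : Fin 21 → I27 → F, f 0 = v ∧ Fam ω σ S T f
  dimD : finrank F ↥(VD σ S T) ≤ 1
  f5 : 7 ≤ ev (σ S) 1
  /-- no stable totally singular subspace of small dimension -/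
  nots : ∀ W : Submodule F (I27 → F), (∀ w ∈ W, σ S w ∈ W) → (∀ w ∈ W, σ T w ∈ W) → W ≠ ⊥ → finrank F ↥W ≤ 6 → ¬ TS W

/-- the situation -/
structure Dat {F : Type u} [Field F] {G : Type*} [Group G] (ω : F) (σ σ' : Representation F G (I27 → F))
    (S T a : G) : Prop where
  h2 : (2 : F) = 0
  hω : ω * ω = ω + 1
  pd : PD σ σ'
  S5 : S ^ 5 = 1
  T3 : T ^ 3 = 1
  ST7 : (S * T) ^ 7 = 1
  a2 : a * a = 1
  b4 : (a * S) ^ 4 = 1
  y3 : yw S T ^ 3 = 1
  yz : yw S T * (S * T) = (S * T) ^ 2 * yw S T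
  half : Half ω σ S T a
  half' : Half (ω ^ 2) σ' S T a
  dimX : 3 ≤ finrank F ↥(X σ S a) + finrank F ↥(X σ' S a)

theorem Dat.symm {F : Type u} [Field F] {G : Type*} [Group G] {ω : F} {σ σ' : Representation F G (I27 → F)}
    {S T a : G} (h : Dat ω σ σ' S T a) : Dat (ω ^ 2) σ' σ S T a where
  h2 := h.h2
  hω := by
    have := h.hω
    linear_combination (ω * ω + ω + 1) * this + ω * h.h2
  pd := h.pd.symm
  S5 := h.S5
  T3 := h.T3
  ST7 := h.ST7
  a2 := h.a2
  b4 := h.b4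
  y3 := h.y3
  yz := h.yz
  half := h.half'
  half' := by
    have h1 : (ω ^ 2) ^ 2 = ω := by
      have := h.hω
      linear_combination (ω * ω + ω + 1 + 1) * this + (ω + 1) * h.h2
    rw [h1]
    exact h.half
  dimX := by
    have := h.dimX
    omega

end Cfsg.Agent.H952.S7
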