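import Mathlib

/-!
# The field with four elements as a computable ring and matrices over it acting on vectors of a module (helper952)
-/

set_option autoImplicit false

namespace Cfsg.Agent.H952.S7

universe u v

/-- the field with 4 elements: `0`, `1`, `2 = ω`, `3 = ω + 1` -/
def KF : Type := Fin 4

namespace KF

instance : DecidableEq KF := inferInstanceAs (DecidableEq (Fin 4))
instance : Fintype KF := inferInstanceAs (Fintype (Fin 4))

/-- element with a code -/
def mk (n : ℕ) : KF := Fin.ofNat 4 n
def code (a : KF) : ℕ := Fin.val (n := 4) a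

instance : Zero KF := ⟨mk 0⟩
instance : One KF := ⟨mk 1⟩
instance : Add KF := ⟨fun a b => mk (code a ^^^ code b)⟩
instance : Neg KF := ⟨fun a => a⟩
/-- multiplication table: row `a`, column `b`, two bits each -/
instance : Mul KF := ⟨fun a b => mk ((2625168384 : ℕ) >>> (2 * (4 * code a + code b)))⟩

instance : CommRing KF where
  add_assoc := by decide +kernel
  zero_add := by decide +kernel
  add_zero := by decide +kernel
  nsmul := nsmulRec
  neg_add_cancel := by decide +kernel
  add_comm := by decide +kernel
  left_distrib := by decide +kernel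
  right_distrib := by decide +kernel
  zero_mul := by decide +kernel
  mul_zero := by decide +kernel
  mul_assoc := by decide +kernel
  one_mul := by decide +kernel
  mul_one := by decide +kernel
  zsmul := zsmulRec
  mul_comm := by decide +kernel

/-- evaluation -/
def io {F : Type u} [Field F] (ω : F) (a : KF) : F :=
  (if code a % 2 = 1 then 1 else 0) + (if code a / 2 = 1 then ω else 0)

theorem forall_KF {P : KF → Prop} (h0 : P 0) (h1 : P 1) (h2 : P (mk 2)) (h3 : P (mk 3)) : ∀ a, P a := by
  intro a
  rcases a with ⟨n, hn⟩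
  match n, hn with
  | 0, _ => exact h0
  | 1, _ => exact h1
  | 2, _ => exact h2
  | 3, _ => exact h3

section
variable {F : Type u} [Field F] {ω : F}

theorem io_zero : io ω 0 = 0 := by
  show (if (0:ℕ) % 2 = 1 then (1:F) else 0) + (if (0:ℕ) / 2 = 1 then ω else 0) = 0
  norm_num
theorem io_one : io ω 1 = 1 := by
  show (if (1:ℕ) % 2 = 1 then (1:F) else 0) + (if (1:ℕ) / 2 = 1 then ω else 0) = 1
  norm_num
theorem io_two : io ω (mk 2) = ω := by
  show (if (2:ℕ) % 2 = 1 then (1:F) else 0) + (if (2:ℕ) / 2 = 1 then ω else 0) = ω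
  norm_num
theorem io_three : io ω (mk 3) = 1 + ω := by
  show (if (3:ℕ) % 2 = 1 then (1:F) else 0) + (if (3:ℕ) / 2 = 1 then ω else 0) = 1 + ω
  norm_num

theorem io_add (h2 : (2 : F) = 0) (a b : KF) : io ω (a + b) = io ω a + io ω b := by
  revert a b
  refine forall_KF (fun b => ?_) (forall_KF ?_ ?_ ?_ ?_) (forall_KF ?_ ?_ ?_ ?_) (forall_KF ?_ ?_ ?_ ?_)
  · rw [zero_add, io_zero, zero_add]
  · rw [add_zero, io_zero, add_zero]
  · rw [show (1 + 1 : KF) = 0 by decide, io_zero, io_one]; linear_combination -h2
  · rw [show (1 + mk 2 : KF) = mk 3 by decide, io_one, io_two, io_three]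
  · rw [show (1 + mk 3 : KF) = mk 2 by decide, io_one, io_two, io_three]; linear_combination -h2
  · rw [add_zero, io_zero, add_zero]
  · rw [show (mk 2 + 1 : KF) = mk 3 by decide, io_one, io_two, io_three]; ring
  · rw [show (mk 2 + mk 2 : KF) = 0 by decide, io_zero, io_two]; linear_combination -ω * h2
  · rw [show (mk 2 + mk 3 : KF) = 1 by decide, io_one, io_two, io_three]; linear_combination -ω * h2
  · rw [add_zero, io_zero, add_zero]
  · rw [show (mk 3 + 1 : KF) = mk 2 by decide, io_one, io_two, io_three]; linear_combination -h2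
  · rw [show (mk 3 + mk 2 : KF) = 1 by decide, io_one, io_two, io_three]; linear_combination -ω * h2
  · rw [show (mk 3 + mk 3 : KF) = 0 by decide, io_zero, io_three]; linear_combination -(1 + ω) * h2

theorem io_mul (h2 : (2 : F) = 0) (hω : ω * ω = ω + 1) (a b : KF) : io ω (a * b) = io ω a * io ω b := by
  revert a b
  refine forall_KF (fun b => ?_) (fun b => ?_) (forall_KF ?_ ?_ ?_ ?_) (forall_KF ?_ ?_ ?_ ?_)
  · rw [zero_mul, io_zero, zero_mul]
  · rw [one_mul, io_one, one_mul]
  · rw [mul_zero, io_zero, mul_zero]
  · rw [mul_one, io_one, mul_one]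
  · rw [show (mk 2 * mk 2 : KF) = mk 3 by decide, io_two, io_three]; linear_combination -hω
  · rw [show (mk 2 * mk 3 : KF) = 1 by decide, io_one, io_two, io_three]; linear_combination -hω - ω * h2
  · rw [mul_zero, io_zero, mul_zero]
  · rw [mul_one, io_one, mul_one]
  · rw [show (mk 3 * mk 2 : KF) = 1 by decide, io_one, io_two, io_three]; linear_combination -hω - ω * h2
  · rw [show (mk 3 * mk 3 : KF) = mk 2 by decide, io_two, io_three]; linear_combination -hω - (1 + ω) * h2

/-- evaluation as a ring homomorphism -/
def iota (h2 : (2 : F) = 0) (hω : ω * ω = ω + 1) : KF →+* F where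
  toFun := io ω
  map_one' := io_one
  map_mul' := io_mul h2 hω
  map_zero' := io_zero
  map_add' := io_add h2

end
end KF

open Matrix

section act
variable {R : Type*} [CommRing R] {F : Type u} [Field F] {M : Type v} [AddCommGroup M] [Module F M]
  {n : Type*} [Fintype n]

/-- linear combination -/
def pr (f : R →+* F) (c : n → R) (v : n → M) : M := ∑ i, f (c i) • v i

variable (f : R →+* F)

theorem pr_add (c d : n → R) (v : n → M) : pr f (c + d) v = pr f c v + pr f d v := by
  unfold pr
  rw [← Finset.sum_add_distrib]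
  exact Finset.sum_congr rfl fun i _ => by rw [Pi.add_apply, map_add, add_smul]

theorem pr_zero (v : n → M) : pr f (0 : n → R) v = 0 := by
  unfold pr
  exact Finset.sum_eq_zero fun i _ => by rw [Pi.zero_apply, map_zero, zero_smul]

theorem pr_smul (a : R) (c : n → R) (v : n → M) : pr f (a • c) v = f a • pr f c v := by
  unfold pr
  rw [Finset.smul_sum]
  exact Finset.sum_congr rfl fun i _ => by rw [Pi.smul_apply, smul_eq_mul, map_mul, mul_smul]

theorem pr_sum {ι : Type*} (s : Finset ι) (c : ι → n → R) (v : n → M) :
    pr f (∑ i ∈ s, c i) v = ∑ i ∈ s, pr f (c i) v := by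
  classical
  induction s using Finset.induction_on with
  | empty => rw [Finset.sum_empty, Finset.sum_empty, pr_zero]
  | insert a s ha ih => rw [Finset.sum_insert ha, Finset.sum_insert ha, pr_add, ih]

theorem pr_single [DecidableEq n] (i : n) (v : n → M) : pr f (Pi.single i 1) v = v i := by
  unfold pr
  rw [Finset.sum_eq_single i]
  · rw [Pi.single_eq_same, map_one, one_smul]
  · intro j _ hj
    rw [Pi.single_eq_of_ne hj, map_zero, zero_smul]
  · intro h; exact absurd (Finset.mem_univ i) h

/-- `g` acts on the vectors `v i` by the matrix `N` -/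
def Act (g : M →ₗ[F] M) (v : n → M) (N : Matrix n n R) : Prop := ∀ i, g (v i) = pr f (N i) v

theorem Act.pr {g : M →ₗ[F] M} {v : n → M} {N : Matrix n n R} (h : Act f g v N) (c : n → R) :
    g (pr f c v) = S7.pr f (c ᵥ* N) v := by
  unfold S7.pr
  rw [map_sum]
  simp only [map_smul, h _]
  unfold S7.pr
  simp only [Finset.smul_sum, smul_smul, vecMul, dotProduct, map_sum, map_mul, Finset.sum_smul]
  rw [Finset.sum_comm]

theorem Act.mul {g h : M →ₗ[F] M} {v : n → M} {N P : Matrix n n R} (hg : Act f g v N) (hh : Act f h v P) :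
    Act f (g * h) v (P * N) := by
  intro i
  rw [Module.End.mul_apply, hh i, hg.pr]
  rfl

end act

end Cfsg.Agent.H952.S7
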