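import Mathlib
import Cfsg.Agent.H952.S7.Defs2

/-!
# Threefold cover of `A₇`, characteristic 2: the products `cr (x 0) (y 0)` (helper952)
-/

set_option autoImplicit false

namespace Cfsg.Agent.H952.S7

open Cfsg Cfsg.Lie Module Matrix
open Cfsg.Agent.ChevalleyStructure.E6Min.Tables
open Cfsg.Agent.H952.F4 (ev es sh cr tf)
open Cfsg.Agent.H952.F4.Jord
open Cfsg.Agent.H163.E6 (TS)
open Cfsg.Agent.H905.E6T (PD)

universe u v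

namespace B4

/-- matrix from a table -/
def tm (t : List (List ℕ)) : Matrix (Fin 6) (Fin 6) KF := fun i j => ent t i j
/-- matrix from a list of tables -/
def tms (t : List (List (List ℕ))) (k : ℕ) : Matrix (Fin 6) (Fin 6) KF := fun i j => ent (t.getD k []) i j

def MSt : List (List ℕ) := [[1, 0, 0, 0, 0, 0], [0, 0, 1, 0, 0, 0], [0, 0, 0, 1, 0, 0], [0, 0, 0, 0, 1, 0], [0, 0, 0, 0, 0, 1], [0, 1, 0, 0, 0, 0]]
def MTt : List (List ℕ) := [[3, 2, 1, 0, 1, 2], [3, 3, 3, 1, 0, 1], [0, 0, 1, 0, 0, 0], [0, 0, 0, 3, 0, 0], [0, 0, 0, 0, 1, 0], [3, 1, 0, 1, 3, 3]]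
def MCt : List (List ℕ) := [[3, 2, 2, 1, 0, 1], [3, 1, 3, 3, 1, 0], [0, 0, 0, 1, 0, 0], [0, 0, 0, 0, 3, 0], [0, 0, 0, 0, 0, 1], [3, 3, 1, 0, 1, 3]]
def MYt : List (List ℕ) := [[1, 2, 3, 3, 2, 0], [0, 0, 0, 0, 0, 1], [2, 3, 0, 3, 2, 2], [1, 1, 1, 2, 0, 2], [3, 0, 1, 1, 0, 1], [2, 0, 3, 0, 3, 3]]
def Zt : List (List (List ℕ)) := [
  [[1, 0, 0, 0, 0, 0], [0, 1, 0, 0, 0, 0], [0, 0, 1, 0, 0, 0], [0, 0, 0, 1, 0, 0], [0, 0, 0, 0, 1, 0], [0, 0, 0, 0, 0, 1]],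
  [[3, 2, 2, 1, 0, 1], [3, 1, 3, 3, 1, 0], [0, 0, 0, 1, 0, 0], [0, 0, 0, 0, 3, 0], [0, 0, 0, 0, 0, 1], [3, 3, 1, 0, 1, 3]],
  [[0, 0, 1, 0, 0, 0], [1, 0, 2, 3, 3, 2], [0, 0, 0, 0, 3, 0], [0, 0, 0, 0, 0, 3], [3, 3, 1, 0, 1, 3], [2, 0, 0, 0, 0, 0]],
  [[0, 0, 0, 1, 0, 0], [2, 3, 0, 3, 0, 3], [0, 0, 0, 0, 0, 3], [2, 2, 3, 0, 3, 2], [2, 0, 0, 0, 0, 0], [1, 3, 3, 2, 0, 2]],
  [[0, 0, 0, 0, 3, 0], [1, 2, 2, 0, 2, 0], [2, 2, 3, 0, 3, 2], [1, 0, 0, 0, 0, 0], [1, 3, 3, 2, 0, 2], [0, 0, 2, 0, 0, 0]],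
  [[0, 0, 0, 0, 0, 3], [2, 0, 3, 2, 2, 3], [1, 0, 0, 0, 0, 0], [3, 2, 2, 1, 0, 1], [0, 0, 2, 0, 0, 0], [0, 0, 0, 2, 0, 0]],
  [[2, 2, 3, 0, 3, 2], [3, 1, 0, 1, 2, 2], [3, 2, 2, 1, 0, 1], [0, 0, 1, 0, 0, 0], [0, 0, 0, 2, 0, 0], [0, 0, 0, 0, 1, 0]]]
def Yt : List (List (List ℕ)) := [
  [[1, 0, 0, 0, 0, 0], [0, 1, 0, 0, 0, 0], [0, 0, 1, 0, 0, 0], [0, 0, 0, 1, 0, 0], [0, 0, 0, 0, 1, 0], [0, 0, 0, 0, 0, 1]],
  [[1, 2, 3, 3, 2, 0], [0, 0, 0, 0, 0, 1], [2, 3, 0, 3, 2, 2], [1, 1, 1, 2, 0, 2], [3, 0, 1, 1, 0, 1], [2, 0, 3, 0, 3, 3]],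
  [[2, 3, 2, 2, 3, 0], [2, 0, 3, 0, 3, 3], [3, 0, 1, 2, 2, 1], [2, 3, 0, 3, 1, 1], [2, 3, 0, 3, 0, 3], [0, 1, 0, 0, 0, 0]]]
def Dt : List (List (List ℕ)) := [
  [[1, 0, 0, 0, 0, 0], [0, 1, 0, 0, 0, 0], [0, 0, 1, 0, 0, 0], [0, 0, 0, 1, 0, 0], [0, 0, 0, 0, 1, 0], [0, 0, 0, 0, 0, 1]],
  [[3, 2, 2, 1, 0, 1], [3, 1, 3, 3, 1, 0], [0, 0, 0, 1, 0, 0], [0, 0, 0, 0, 3, 0], [0, 0, 0, 0, 0, 1], [3, 3, 1, 0, 1, 3]],
  [[0, 0, 1, 0, 0, 0], [1, 0, 2, 3, 3, 2], [0, 0, 0, 0, 3, 0], [0, 0, 0, 0, 0, 3], [3, 3, 1, 0, 1, 3], [2, 0, 0, 0, 0, 0]],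
  [[0, 0, 0, 1, 0, 0], [2, 3, 0, 3, 0, 3], [0, 0, 0, 0, 0, 3], [2, 2, 3, 0, 3, 2], [2, 0, 0, 0, 0, 0], [1, 3, 3, 2, 0, 2]],
  [[0, 0, 0, 0, 3, 0], [1, 2, 2, 0, 2, 0], [2, 2, 3, 0, 3, 2], [1, 0, 0, 0, 0, 0], [1, 3, 3, 2, 0, 2], [0, 0, 2, 0, 0, 0]],
  [[0, 0, 0, 0, 0, 3], [2, 0, 3, 2, 2, 3], [1, 0, 0, 0, 0, 0], [3, 2, 2, 1, 0, 1], [0, 0, 2, 0, 0, 0], [0, 0, 0, 2, 0, 0]],
  [[2, 2, 3, 0, 3, 2], [3, 1, 0, 1, 2, 2], [3, 2, 2, 1, 0, 1], [0, 0, 1, 0, 0, 0], [0, 0, 0, 2, 0, 0], [0, 0, 0, 0, 1, 0]],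
  [[1, 2, 3, 3, 2, 0], [0, 0, 0, 0, 0, 1], [2, 3, 0, 3, 2, 2], [1, 1, 1, 2, 0, 2], [3, 0, 1, 1, 0, 1], [2, 0, 3, 0, 3, 3]],
  [[3, 1, 0, 1, 1, 0], [2, 0, 0, 0, 0, 0], [1, 1, 1, 2, 0, 2], [2, 0, 3, 3, 0, 3], [2, 0, 3, 0, 3, 3], [3, 2, 1, 0, 1, 2]],
  [[2, 3, 0, 3, 2, 2], [0, 0, 2, 0, 0, 0], [2, 0, 3, 3, 0, 3], [1, 0, 2, 0, 2, 2], [3, 2, 1, 0, 1, 2], [2, 3, 1, 1, 3, 0]],
  [[1, 1, 1, 2, 0, 2], [0, 0, 0, 0, 1, 0], [1, 0, 2, 0, 2, 2], [2, 1, 3, 0, 3, 1], [2, 3, 1, 1, 3, 0], [1, 2, 0, 2, 2, 0]],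
  [[2, 0, 3, 3, 0, 3], [3, 3, 1, 0, 1, 3], [2, 1, 3, 0, 3, 1], [1, 2, 3, 3, 2, 0], [1, 2, 0, 2, 2, 0], [3, 1, 0, 1, 3, 3]],
  [[1, 0, 2, 0, 2, 2], [1, 3, 3, 2, 0, 2], [1, 2, 3, 3, 2, 0], [3, 1, 0, 1, 1, 0], [3, 1, 0, 1, 3, 3], [2, 2, 2, 3, 0, 3]],
  [[2, 1, 3, 0, 3, 1], [0, 0, 0, 2, 0, 0], [3, 1, 0, 1, 1, 0], [2, 3, 0, 3, 2, 2], [2, 2, 2, 3, 0, 3], [3, 0, 1, 1, 0, 1]],
  [[2, 3, 2, 2, 3, 0], [2, 0, 3, 0, 3, 3], [3, 0, 1, 2, 2, 1], [2, 3, 0, 3, 1, 1], [2, 3, 0, 3, 0, 3], [0, 1, 0, 0, 0, 0]],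
  [[1, 0, 2, 1, 1, 2], [2, 3, 1, 1, 3, 0], [2, 3, 0, 3, 1, 1], [1, 2, 0, 2, 0, 2], [0, 1, 0, 0, 0, 0], [1, 2, 2, 0, 2, 0]],
  [[3, 0, 1, 2, 2, 1], [3, 1, 0, 1, 3, 3], [1, 2, 0, 2, 0, 2], [0, 3, 0, 0, 0, 0], [1, 2, 2, 0, 2, 0], [3, 1, 3, 3, 1, 0]],
  [[2, 3, 0, 3, 1, 1], [3, 0, 1, 1, 0, 1], [0, 3, 0, 0, 0, 0], [3, 1, 1, 0, 1, 0], [3, 1, 3, 3, 1, 0], [2, 0, 3, 2, 2, 3]],
  [[1, 2, 0, 2, 0, 2], [3, 2, 1, 0, 1, 2], [3, 1, 1, 0, 1, 0], [2, 3, 2, 2, 3, 0], [2, 0, 3, 2, 2, 3], [1, 0, 2, 3, 3, 2]],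
  [[0, 3, 0, 0, 0, 0], [1, 2, 0, 2, 2, 0], [2, 3, 2, 2, 3, 0], [1, 0, 2, 1, 1, 2], [1, 0, 2, 3, 3, 2], [3, 1, 0, 1, 2, 2]],
  [[3, 1, 1, 0, 1, 0], [2, 2, 2, 3, 0, 3], [1, 0, 2, 1, 1, 2], [3, 0, 1, 2, 2, 1], [3, 1, 0, 1, 2, 2], [2, 3, 0, 3, 0, 3]]]
def X0t : List (List ℕ) := [[0, 0, 1, 1, 0, 1], [0, 0, 1, 2, 1, 3], [1, 1, 0, 3, 2, 1], [1, 2, 3, 0, 1, 1], [0, 1, 2, 1, 0, 3], [1, 3, 1, 1, 3, 0]]
def X1t : List (List ℕ) := [[1, 3, 2, 1, 1, 3], [3, 0, 0, 1, 0, 2], [1, 3, 0, 0, 2, 3], [2, 0, 2, 0, 0, 2], [1, 3, 3, 3, 0, 1], [0, 0, 0, 1, 3, 3]]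
def X2t : List (List ℕ) := [[1, 3, 3, 2, 1, 1], [0, 3, 0, 0, 1, 3], [3, 2, 0, 0, 1, 0], [1, 3, 3, 0, 0, 2], [2, 2, 0, 2, 0, 0], [1, 1, 3, 3, 3, 0]]
def X3t : List (List ℕ) := [[0, 1, 0, 1, 1, 0], [1, 0, 3, 1, 1, 3], [0, 3, 0, 1, 2, 1], [1, 1, 1, 0, 3, 2], [1, 1, 2, 3, 0, 1], [0, 3, 1, 2, 1, 0]]

/-- products for `yw` -/
def It : List (List (List ℕ)) := [
  [[3, 2, 1, 0, 1, 2], [0, 0, 1, 0, 0, 0], [0, 0, 0, 3, 0, 0], [0, 0, 0, 0, 1, 0], [3, 1, 0, 1, 3, 3], [3, 3, 3, 1, 0, 1]],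
  [[3, 1, 0, 1, 2, 2], [0, 1, 0, 0, 0, 0], [0, 0, 3, 0, 0, 0], [0, 0, 0, 1, 0, 0], [3, 0, 1, 3, 3, 1], [3, 3, 1, 0, 1, 3]],
  [[3, 1, 0, 1, 3, 3], [3, 2, 2, 1, 0, 1], [0, 0, 3, 0, 0, 0], [0, 0, 0, 2, 0, 0], [2, 0, 3, 0, 3, 3], [1, 3, 2, 0, 2, 3]],
  [[3, 0, 1, 3, 3, 1], [3, 2, 1, 0, 1, 2], [0, 3, 0, 0, 0, 0], [0, 0, 2, 0, 0, 0], [2, 3, 0, 3, 3, 0], [1, 2, 0, 2, 3, 3]],
  [[3, 1, 3, 3, 1, 0], [3, 1, 0, 1, 2, 2], [0, 0, 0, 0, 0, 3], [0, 2, 0, 0, 0, 0], [2, 0, 3, 3, 0, 3], [1, 0, 2, 3, 3, 2]],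
  [[1, 2, 3, 3, 2, 0], [0, 0, 0, 0, 0, 1], [2, 3, 0, 3, 2, 2], [1, 1, 1, 2, 0, 2], [3, 0, 1, 1, 0, 1], [2, 0, 3, 0, 3, 3]]]
def S4t : List (List ℕ) := [[1, 0, 0, 0, 0, 0], [0, 0, 0, 0, 0, 1], [0, 1, 0, 0, 0, 0], [0, 0, 1, 0, 0, 0], [0, 0, 0, 1, 0, 0], [0, 0, 0, 0, 1, 0]]
def T2t : List (List ℕ) := [[2, 2, 3, 0, 3, 2], [3, 2, 2, 1, 0, 1], [0, 0, 1, 0, 0, 0], [0, 0, 0, 2, 0, 0], [0, 0, 0, 0, 1, 0], [3, 1, 0, 1, 2, 2]]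

theorem t1 : tm MSt * tm MSt * (tm MSt * tm MSt) = tm S4t := by decide +kernel
theorem t2 : tm MTt * tm MTt = tm T2t := by decide +kernel
theorem t3 : tm MTt * tm MSt = tm MCt := by decide +kernel
theorem i0 : tm MSt * tm MTt = tms It 0 := by decide +kernel
theorem i1 : tms It 0 * tm S4t = tms It 1 := by decide +kernel
theorem i2 : tms It 1 * tm T2t = tms It 2 := by decide +kernel
theorem i3 : tms It 2 * tm S4t = tms It 3 := by decide +kernel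
theorem i4 : tms It 3 * tm S4t = tms It 4 := by decide +kernel
theorem i5 : tms It 4 * tm MTt = tm MYt := by decide +kernel
theorem z0 : tms Zt 0 = 1 := by decide +kernel
theorem z1 : ∀ i : Fin 6, tm MCt * tms Zt i = tms Zt (i + 1) := by decide +kernel
theorem y0 : tms Yt 0 = 1 := by decide +kernel
theorem y1 : ∀ i : Fin 2, tm MYt * tms Yt i = tms Yt (i + 1) := by decide +kernel
theorem d0 : ∀ j : Fin 3, ∀ i : Fin 7, tms Zt i * tms Yt j = tms Dt (7 * j + i) := by decide +kernel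

/-- action on bilinear expressions -/
def act2 (N X : Matrix (Fin 6) (Fin 6) KF) : Matrix (Fin 6) (Fin 6) KF := Nᵀ * X * N

/-- the sum over the group of order 21 -/
def EDm (X : Matrix (Fin 6) (Fin 6) KF) : Matrix (Fin 6) (Fin 6) KF :=
  ∑ j : Fin 3, ∑ i : Fin 7, act2 (tms Dt (7 * j + i)) X

/-- matrix units -/
def Es (j k : Fin 6) : Matrix (Fin 6) (Fin 6) KF := fun j' k' => if j' = j ∧ k' = k then 1 else 0

theorem e0 : EDm (Es 0 0) = tm X0t := by decide +kernel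
theorem e1 : EDm (Es 0 2) = tm X1t := by decide +kernel
theorem e2 : act2 (tm MSt) (tm X1t) = tm X2t := by decide +kernel
theorem e3 : EDm (tm X2t) = tm X0t := by decide +kernel
theorem e4 : act2 (tm MSt) (tm X0t) = tm X3t := by decide +kernel
theorem e5 : EDm (tm X3t) = 0 := by decide +kernel

/-- rows of `S`, `T` -/
def MS' : Matrix (Fin 6) (Fin 6) KF := fun j l => Am (sp (bas j)) l
def MT' : Matrix (Fin 6) (Fin 6) KF := fun j l => KF.mk 2 ^ nt (bas j) * Am (tp (bas j)) l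
theorem ms : MS' = tm MSt := by decide +kernel
theorem mt' : MT' = tm MTt := by decide +kernel

end B4

open B4

section
variable {F : Type u} [Field F] {G : Type*} [Group G] {ω : F} {σ σ' : Representation F G (I27 → F)} {S T a : G}

/-- coordinates -/
theorem hfix_am (h2 : (2 : F) = 0) (hω : ω * ω = ω + 1) {v : Fin 21 → I27 → F} (hv : HFix ω v) (p : Fin 21) :
    v p = lin ω (Am p) (v ∘ bas) := by
  rw [hv p, ← pr_eq_lin h2 hω, ← pr_eq_lin h2 hω]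
  have h1 : Hm p = (Am p) ᵥ* Hb := by
    rw [← Am_Hm]; rfl
  have h3 : ∀ j, (v ∘ bas) j = pr (KF.iota h2 hω) (Hb j) v := fun j => hv (bas j)
  rw [h1]
  unfold pr
  simp only [h3]
  unfold pr
  simp only [Finset.smul_sum, smul_smul, vecMul, dotProduct, map_sum, map_mul, Finset.sum_smul]
  rw [Finset.sum_comm]

theorem actS (h2 : (2 : F) = 0) (hω : ω * ω = ω + 1) {v : Fin 21 → I27 → F} (hf : Fam ω σ S T v) (hv : HFix ω v) :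
    Act (KF.iota h2 hω) (σ S) (v ∘ bas) (tm MSt) := by
  intro j
  rw [← ms]
  show σ S (v (bas j)) = _
  rw [hf.s, hfix_am h2 hω hv]
  rfl

theorem actT (h2 : (2 : F) = 0) (hω : ω * ω = ω + 1) {v : Fin 21 → I27 → F} (hf : Fam ω σ S T v) (hv : HFix ω v) :
    Act (KF.iota h2 hω) (σ T) (v ∘ bas) (tm MTt) := by
  intro j
  rw [← mt']
  show σ T (v (bas j)) = _
  rw [hf.t, hfix_am h2 hω hv]
  have h1 : (MT' j : Fin 6 → KF) = (KF.mk 2 ^ nt (bas j)) • (Am (tp (bas j)) : Fin 6 → KF) := rfl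
  rw [h1, pr_smul, map_pow]
  congr 2
  exact (KF.io_two (ω := ω)).symm

theorem act_one {R : Type*} [CommRing R] {M : Type v} [AddCommGroup M] [Module F M] {n : Type*} [Fintype n]
    [DecidableEq n] (f : R →+* F) (w : n → M) : Act f (1 : M →ₗ[F] M) w 1 := by
  intro i
  have h1 : ((1 : Matrix n n R) i) = Pi.single i 1 := by
    funext j
    rw [Matrix.one_apply, Pi.single_apply]
    simp only [eq_comm]
  rw [h1, pr_single]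
  rfl

theorem act_mul' {R : Type*} [CommRing R] {n : Type*} [Fintype n] (f : R →+* F) {g h : G} {w : n → I27 → F}
    {N P : Matrix n n R} (hg : Act f (σ g) w N) (hh : Act f (σ h) w P) : Act f (σ (g * h)) w (P * N) := by
  rw [map_mul]
  exact hg.mul f hh

variable {f : KF →+* F} {w : Fin 6 → I27 → F}

theorem act_y (hS : S ^ 5 = 1) (hT : T ^ 3 = 1) (h1 : Act f (σ S) w (tm MSt)) (h2 : Act f (σ T) w (tm MTt)) :
    Act f (σ (yw S T)) w (tm MYt) := by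
  have e1 : S⁻¹ = S * S * (S * S) := by
    rw [inv_eq_iff_mul_eq_one, ← hS]
    simp only [pow_succ, pow_zero, one_mul, mul_assoc]
  have e2 : T⁻¹ = T * T := by
    rw [inv_eq_iff_mul_eq_one, ← hT]
    simp only [pow_succ, pow_zero, one_mul, mul_assoc]
  have a1 : Act f (σ (S * S * (S * S))) w (tm S4t) := by
    rw [← t1]
    exact act_mul' f (act_mul' f h1 h1) (act_mul' f h1 h1)
  have a2 : Act f (σ (T * T)) w (tm T2t) := by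
    rw [← t2]
    exact act_mul' f h2 h2
  have b0 : Act f (σ (T * S)) w (tms It 0) := by rw [← i0]; exact act_mul' f h2 h1
  have b1 : Act f (σ (S⁻¹ * (T * S))) w (tms It 1) := by rw [← i1, e1]; exact act_mul' f a1 b0
  have b2 : Act f (σ (T⁻¹ * (S⁻¹ * (T * S)))) w (tms It 2) := by rw [← i2, e2]; exact act_mul' f a2 b1
  have b3 : Act f (σ (S⁻¹ * (T⁻¹ * (S⁻¹ * (T * S))))) w (tms It 3) := by
    rw [← i3]
    refine act_mul' f ?_ b2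
    rw [e1]; exact a1
  have b4 : Act f (σ (S⁻¹ * (S⁻¹ * (T⁻¹ * (S⁻¹ * (T * S)))))) w (tms It 4) := by
    rw [← i4]
    refine act_mul' f ?_ b3
    rw [e1]; exact a1
  have b5 : Act f (σ (T * (S⁻¹ * (S⁻¹ * (T⁻¹ * (S⁻¹ * (T * S))))))) w (tm MYt) := by
    rw [← i5]
    exact act_mul' f h2 b4
  have e3 : yw S T = T * (S⁻¹ * (S⁻¹ * (T⁻¹ * (S⁻¹ * (T * S))))) := by
    rw [yw]; group
  rw [e3]
  exact b5

theorem act_z (h1 : Act f (σ S) w (tm MSt)) (h2 : Act f (σ T) w (tm MTt)) :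
    ∀ i : ℕ, i ≤ 6 → Act f (σ ((S * T) ^ i)) w (tms Zt i) := by
  intro i
  induction i with
  | zero => intro _; rw [pow_zero, map_one, z0]; exact act_one f w
  | succ i ih =>
    intro hi
    have h3 := ih (by omega)
    have h4 := z1 ⟨i, by omega⟩
    rw [pow_succ, ← h4, ← t3]
    exact act_mul' f h3 (act_mul' f h1 h2)

theorem act_yp (hS : S ^ 5 = 1) (hT : T ^ 3 = 1) (h1 : Act f (σ S) w (tm MSt)) (h2 : Act f (σ T) w (tm MTt)) :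
    ∀ i : ℕ, i ≤ 2 → Act f (σ (yw S T ^ i)) w (tms Yt i) := by
  intro i
  induction i with
  | zero => intro _; rw [pow_zero, map_one, y0]; exact act_one f w
  | succ i ih =>
    intro hi
    have h3 := ih (by omega)
    have h4 := y1 ⟨i, by omega⟩
    rw [pow_succ, ← h4]
    exact act_mul' f h3 (act_y hS hT h1 h2)

theorem act_d (hS : S ^ 5 = 1) (hT : T ^ 3 = 1) (h1 : Act f (σ S) w (tm MSt)) (h2 : Act f (σ T) w (tm MTt))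
    (j : Fin 3) (i : Fin 7) : Act f (σ (yw S T ^ (j : ℕ) * (S * T) ^ (i : ℕ))) w (tms Dt (7 * j + i)) := by
  rw [← d0]
  exact act_mul' f (act_yp hS hT h1 h2 j (by omega)) (act_z h1 h2 i (by omega))

/-- bilinear expressions -/
noncomputable def BX (f : KF →+* F) (w w' : Fin 6 → I27 → F) (X : Matrix (Fin 6) (Fin 6) KF) : I27 → F :=
  ∑ j, ∑ k, f (X j k) • cr (w j) (w' k)

theorem cr_sum_left {ι : Type*} (s : Finset ι) (u : ι → I27 → F) (y : I27 → F) :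
    cr (∑ i ∈ s, u i) y = ∑ i ∈ s, cr (u i) y := by
  have h := map_sum ((Cfsg.Agent.H905.E6T.crB F).flip y) u s
  exact h

theorem cr_sum_right {ι : Type*} (s : Finset ι) (u : ι → I27 → F) (y : I27 → F) :
    cr y (∑ i ∈ s, u i) = ∑ i ∈ s, cr y (u i) := by
  have h := map_sum (Cfsg.Agent.H905.E6T.crB F y) u s
  exact h

theorem cr_pr (f : KF →+* F) (w w' : Fin 6 → I27 → F) (c d : Fin 6 → KF) :
    cr (pr f c w) (pr f d w') = ∑ j, ∑ k, (f (c j) * f (d k)) • cr (w j) (w' k) := by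
  unfold pr
  rw [cr_sum_left]
  refine Finset.sum_congr rfl fun j _ => ?_
  rw [cr_smul_left, cr_sum_right, Finset.smul_sum]
  refine Finset.sum_congr rfl fun k _ => ?_
  rw [cr_smul_right, smul_smul]

theorem sum4 {M : Type*} [AddCommMonoid M] {n : Type*} [Fintype n] (A : n → n → n → n → M) :
    ∑ j, ∑ k, ∑ l, ∑ m, A j k l m = ∑ l, ∑ m, ∑ k, ∑ j, A j k l m := by
  calc ∑ j, ∑ k, ∑ l, ∑ m, A j k l m = ∑ j, ∑ l, ∑ k, ∑ m, A j k l m :=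
        Finset.sum_congr rfl fun j _ => Finset.sum_comm
    _ = ∑ l, ∑ j, ∑ k, ∑ m, A j k l m := Finset.sum_comm
    _ = ∑ l, ∑ j, ∑ m, ∑ k, A j k l m :=
        Finset.sum_congr rfl fun l _ => Finset.sum_congr rfl fun j _ => Finset.sum_comm
    _ = ∑ l, ∑ m, ∑ j, ∑ k, A j k l m := Finset.sum_congr rfl fun l _ => Finset.sum_comm
    _ = ∑ l, ∑ m, ∑ k, ∑ j, A j k l m :=
        Finset.sum_congr rfl fun l _ => Finset.sum_congr rfl fun m _ => Finset.sum_comm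

theorem act_BX (hP : PD σ σ') {w' : Fin 6 → I27 → F} {g : G} {N : Matrix (Fin 6) (Fin 6) KF}
    (h1 : Act f (σ g) w N) (h2 : Act f (σ g) w' N) (X : Matrix (Fin 6) (Fin 6) KF) :
    σ' g (BX f w w' X) = BX f w w' (act2 N X) := by
  unfold BX
  simp only [map_sum, map_smul]
  have h3 : ∀ j k, σ' g (cr (w j) (w' k)) = ∑ l, ∑ m, (f (N j l) * f (N k m)) • cr (w l) (w' m) := by
    intro j k
    rw [← hP.hcr, h1 j, h2 k, cr_pr]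
  simp only [h3, act2, Matrix.mul_apply, Matrix.transpose_apply, map_sum, map_mul, Finset.sum_mul, Finset.sum_smul,
    Finset.smul_sum, smul_smul]
  rw [sum4]
  refine Finset.sum_congr rfl fun l _ => Finset.sum_congr rfl fun m _ => Finset.sum_congr rfl fun k _ =>
    Finset.sum_congr rfl fun j _ => ?_
  congr 1
  ring

theorem BX_add (w' : Fin 6 → I27 → F) (X Y : Matrix (Fin 6) (Fin 6) KF) :
    BX f w w' (X + Y) = BX f w w' X + BX f w w' Y := by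
  unfold BX
  simp only [Matrix.add_apply, map_add, add_smul, Finset.sum_add_distrib]

theorem BX_zero (w' : Fin 6 → I27 → F) : BX f w w' 0 = 0 := by
  unfold BX
  simp only [Matrix.zero_apply, map_zero, zero_smul, Finset.sum_const_zero]

theorem BX_sum (w' : Fin 6 → I27 → F) {ι : Type*} (s : Finset ι) (X : ι → Matrix (Fin 6) (Fin 6) KF) :
    BX f w w' (∑ i ∈ s, X i) = ∑ i ∈ s, BX f w w' (X i) := by
  classical
  induction s using Finset.induction_on with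
  | empty => rw [Finset.sum_empty, Finset.sum_empty, BX_zero]
  | insert a s ha ih => rw [Finset.sum_insert ha, Finset.sum_insert ha, BX_add, ih]

theorem BX_single (w' : Fin 6 → I27 → F) (j k : Fin 6) :
    BX f w w' (Es j k) = cr (w j) (w' k) := by
  unfold BX Es
  rw [Finset.sum_eq_single j]
  · rw [Finset.sum_eq_single k]
    · simp
    · intro k' _ hk
      simp [hk]
    · intro h; exact absurd (Finset.mem_univ k) h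
  · intro j' _ hj
    refine Finset.sum_eq_zero fun k' _ => ?_
    simp [hj]
  · intro h; exact absurd (Finset.mem_univ j) h

theorem eD_BX (hP : PD σ σ') (hS : S ^ 5 = 1) (hT : T ^ 3 = 1) {w' : Fin 6 → I27 → F} (h1 : Act f (σ S) w (tm MSt))
    (h2 : Act f (σ T) w (tm MTt)) (h1' : Act f (σ S) w' (tm MSt)) (h2' : Act f (σ T) w' (tm MTt))
    (X : Matrix (Fin 6) (Fin 6) KF) : eD σ' S T (BX f w w' X) = BX f w w' (EDm X) := by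
  unfold eD EDm
  simp only [LinearMap.sum_apply, BX_sum]
  refine Finset.sum_congr rfl fun j _ => Finset.sum_congr rfl fun i _ => ?_
  exact act_BX hP (act_d hS hT h1 h2 j i) (act_d hS hT h1' h2' j i) X

/-- the key relation: a one-dimensional space of invariants of the group of order 21 does not see `cr (x 0) (y 0)` -/
theorem eD_cr (h : Dat ω σ σ' S T a) {x y : Fin 21 → I27 → F} (hx : Fam ω σ S T x) (hy : Fam ω σ S T y)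
    (hxH : HFix ω x) (hyH : HFix ω y) (hD : ∀ v, eD σ' S T v ∈ VD σ' S T) : eD σ' S T (cr (x 0) (y 0)) = 0 := by
  have a1 := actS h.h2 h.hω hx hxH
  have a2 := actT h.h2 h.hω hx hxH
  have b1 := actS h.h2 h.hω hy hyH
  have b2 := actT h.h2 h.hω hy hyH
  set w := x ∘ bas with hw
  set w' := y ∘ bas with hw'
  have k0 : cr (x 0) (y 0) = BX (KF.iota h.h2 h.hω) w w' (Es 0 0) := by
    rw [BX_single]; rfl
  have k1 : eD σ' S T (cr (x 0) (y 0)) = BX (KF.iota h.h2 h.hω) w w' (tm X0t) := by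
    rw [k0, eD_BX h.pd h.S5 h.T3 a1 a2 b1 b2, e0]
  have k2 : eD σ' S T (cr (w 0) (w' 2)) = BX (KF.iota h.h2 h.hω) w w' (tm X1t) := by
    rw [← BX_single (f := KF.iota h.h2 h.hω), eD_BX h.pd h.S5 h.T3 a1 a2 b1 b2, e1]
  have k3 : eD σ' S T (σ' S (BX (KF.iota h.h2 h.hω) w w' (tm X1t))) = BX (KF.iota h.h2 h.hω) w w' (tm X0t) := by
    rw [act_BX h.pd a1 b1, e2, eD_BX h.pd h.S5 h.T3 a1 a2 b1 b2, e3]
  have k4 : eD σ' S T (σ' S (BX (KF.iota h.h2 h.hω) w w' (tm X0t))) = 0 := by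
    rw [act_BX h.pd a1 b1, e4, eD_BX h.pd h.S5 h.T3 a1 a2 b1 b2, e5, BX_zero]
  rw [← k1] at k3 k4
  rw [← k2] at k3
  by_contra hne
  have m0 := hD (cr (x 0) (y 0))
  have m1 := hD (cr (w 0) (w' 2))
  obtain ⟨c, hc⟩ : ∃ c : F, eD σ' S T (cr (w 0) (w' 2)) = c • eD σ' S T (cr (x 0) (y 0)) := by
    have h5 := finrank_le_one_iff.1 h.half'.dimD
    obtain ⟨v, hv⟩ := h5
    obtain ⟨c0, hc0⟩ := hv ⟨_, m0⟩
    obtain ⟨c1, hc1⟩ := hv ⟨_, m1⟩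
    have e0 : c0 • (v : I27 → F) = eD σ' S T (cr (x 0) (y 0)) := congrArg Subtype.val hc0
    have e1 : c1 • (v : I27 → F) = eD σ' S T (cr (w 0) (w' 2)) := congrArg Subtype.val hc1
    have hne0 : c0 ≠ 0 := by
      rintro rfl
      exact hne (by rw [← e0, zero_smul])
    refine ⟨c1 * c0⁻¹, ?_⟩
    rw [← e0, ← e1, smul_smul, mul_assoc, inv_mul_cancel₀ hne0, mul_one]
  rw [hc, map_smul, map_smul, k4, smul_zero] at k3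
  exact hne k3.symm

end

end Cfsg.Agent.H952.S7
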