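import Mathlib
import Cfsg.Agent.H288.E6.S7B3
import Cfsg.Agent.H911.S7Rstep
import Cfsg.Agent.H952.S7.B4

/-!
# Threefold cover of `A₇`, characteristic 2: the group of order 21 (helper952)
-/

set_option autoImplicit false

namespace Cfsg.Agent.H952.S7

open Cfsg Cfsg.Lie Module Matrix
open Cfsg.Agent.ChevalleyStructure.E6Min.Tables
open Cfsg.Agent.H952.F4 (ev es sh cr tf)
open Cfsg.Agent.H952.F4.Jord
open Cfsg.Agent.H163.E6 (TS)
open Cfsg.Agent.H905.E6T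

universe u v

section
variable {F : Type u} [Field F] {G : Type*} [Group G] {ω : F} {σ σ' : Representation F G (I27 → F)} {S T a : G}

theorem mem_VD {v : I27 → F} : v ∈ VD σ S T ↔ σ (S * T) v = v ∧ σ (yw S T) v = v :=
  ⟨fun h => ⟨Cfsg.Agent.H911.S7.mem_ev.1 h.1, Cfsg.Agent.H911.S7.mem_ev.1 h.2⟩,
    fun h => ⟨Cfsg.Agent.H911.S7.mem_ev.2 h.1, Cfsg.Agent.H911.S7.mem_ev.2 h.2⟩⟩

theorem mem_X {v : I27 → F} : v ∈ X σ S a ↔ σ S v = v ∧ σ a v = v :=
  ⟨fun h => ⟨Cfsg.Agent.H911.S7.mem_ev.1 h.1, Cfsg.Agent.H911.S7.mem_ev.1 h.2⟩,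
    fun h => ⟨Cfsg.Agent.H911.S7.mem_ev.2 h.1, Cfsg.Agent.H911.S7.mem_ev.2 h.2⟩⟩

theorem pow_fix {g : G} {v : I27 → F} (h : σ g v = v) : ∀ n : ℕ, σ (g ^ n) v = v := by
  intro n
  induction n with
  | zero => rw [pow_zero, map_one]; rfl
  | succ n ih => rw [pow_succ, map_mul, Module.End.mul_apply, h, ih]

theorem eD_app (v : I27 → F) :
    eD σ S T v = ∑ j : Fin 3, ∑ i : Fin 7, σ (yw S T ^ (j : ℕ) * (S * T) ^ (i : ℕ)) v := by
  unfold eD
  simp only [LinearMap.sum_apply]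

/-- sum over the powers of an element of order 7 -/
theorem sum7 {c : G} (hc : c ^ 7 = 1) (v : I27 → F) (k : ℕ) :
    σ (c ^ k) (∑ i : Fin 7, σ (c ^ (i : ℕ)) v) = ∑ i : Fin 7, σ (c ^ (i : ℕ)) v := by
  refine pow_fix ?_ k
  rw [map_sum]
  have h1 : ∀ i : Fin 7, σ c (σ (c ^ (i : ℕ)) v) = σ (c ^ ((i + 1 : Fin 7) : ℕ)) v := by
    intro i
    rw [← Module.End.mul_apply, ← map_mul, ← pow_succ']
    have h2 : c ^ ((i : ℕ) + 1) = c ^ ((i + 1 : Fin 7) : ℕ) := by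
      fin_cases i
      · rfl
      · rfl
      · rfl
      · rfl
      · rfl
      · rfl
      · show c ^ 7 = c ^ 0
        rw [hc, pow_zero]
    rw [h2]
  simp only [h1]
  exact Equiv.sum_comp (Equiv.addRight (1 : Fin 7)) (fun i => σ (c ^ (i : ℕ)) v)

theorem eD_mem (hc : (S * T) ^ 7 = 1) (hy : yw S T ^ 3 = 1) (hyz : yw S T * (S * T) = (S * T) ^ 2 * yw S T)
    (v : I27 → F) : eD σ S T v ∈ VD σ S T := by
  set c := S * T with hcd
  set y := yw S T with hyd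
  have e0 : eD σ S T v = ∑ j : Fin 3, σ (y ^ (j : ℕ)) (∑ i : Fin 7, σ (c ^ (i : ℕ)) v) := by
    rw [eD_app]
    refine Finset.sum_congr rfl fun j _ => ?_
    rw [map_sum]
    refine Finset.sum_congr rfl fun i _ => ?_
    rw [map_mul]; rfl
  have hZ := sum7 (σ := σ) hc v
  set Z := ∑ i : Fin 7, σ (c ^ (i : ℕ)) v with hZd
  have hA : c ^ 4 * y = y * c ^ 2 := by
    calc c ^ 4 * y = c ^ 2 * (c ^ 2 * y) := by rw [← mul_assoc, ← pow_add]
      _ = c ^ 2 * (y * c) := by rw [← hyz]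
      _ = (c ^ 2 * y) * c := by rw [← mul_assoc]
      _ = y * c ^ 2 := by rw [← hyz, mul_assoc, ← sq]
  have e1 : c * y = y * c ^ 4 := by
    calc c * y = c ^ 8 * y := by rw [show c ^ 8 = c by rw [pow_succ, hc, one_mul]]
      _ = c ^ 4 * (c ^ 4 * y) := by rw [← mul_assoc, ← pow_add]
      _ = c ^ 4 * (y * c ^ 2) := by rw [hA]
      _ = (c ^ 4 * y) * c ^ 2 := by rw [← mul_assoc]
      _ = y * c ^ 4 := by rw [hA, mul_assoc, ← pow_add]
  have e2 : c * y ^ 2 = y ^ 2 * c ^ 2 := by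
    calc c * y ^ 2 = (c * y) * y := by rw [sq, ← mul_assoc c]
      _ = y * (c ^ 4 * y) := by rw [e1, mul_assoc]
      _ = y ^ 2 * c ^ 2 := by rw [hA, ← mul_assoc, ← sq]
  have e3 : eD σ S T v = Z + σ y Z + σ (y ^ 2) Z := by
    rw [e0, Fin.sum_univ_three]
    show σ (y ^ 0) Z + σ (y ^ 1) Z + σ (y ^ 2) Z = _
    rw [pow_zero, pow_one, map_one]; rfl
  rw [mem_VD, e3]
  constructor
  · rw [map_add, map_add, ← Module.End.mul_apply, ← map_mul, ← Module.End.mul_apply, ← map_mul]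
    have h0 : σ c Z = Z := by have := hZ 1; rwa [pow_one] at this
    rw [h0, ← hcd, e1, e2, map_mul, Module.End.mul_apply, hZ 4, map_mul, Module.End.mul_apply, hZ 2]
  · rw [map_add, map_add, ← Module.End.mul_apply, ← map_mul, ← Module.End.mul_apply, ← map_mul, ← hyd]
    rw [← sq, ← pow_succ', hy, map_one, Module.End.one_apply]
    abel

theorem eD_fix (h2 : (2 : F) = 0) {v : I27 → F} (hv : v ∈ VD σ S T) : eD σ S T v = v := by
  rw [mem_VD] at hv
  rw [eD_app]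
  have h1 : ∀ (j : Fin 3) (i : Fin 7), σ (yw S T ^ (j : ℕ) * (S * T) ^ (i : ℕ)) v = v := by
    intro j i
    rw [map_mul, Module.End.mul_apply, pow_fix hv.1, pow_fix hv.2]
  simp only [h1, Finset.sum_const, Finset.card_univ, Fintype.card_fin]
  rw [← mul_smul]
  have h3 : ((3 * 7 : ℕ)) • v = (((3 * 7 : ℕ)) : F) • v := (Nat.cast_smul_eq_nsmul F _ v).symm
  rw [h3]
  have h4 : (((3 * 7 : ℕ)) : F) = 1 := by
    push_cast
    linear_combination 10 * h2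
  rw [h4, one_smul]

theorem tf_sum_left {ι : Type*} (s : Finset ι) (u : ι → I27 → F) (y : I27 → F) :
    tf (∑ i ∈ s, u i) y = ∑ i ∈ s, tf (u i) y := by
  have h := map_sum ((tfB F).flip y) u s
  exact h

theorem tf_sum_right {ι : Type*} (s : Finset ι) (u : ι → I27 → F) (y : I27 → F) :
    tf y (∑ i ∈ s, u i) = ∑ i ∈ s, tf y (u i) := by
  have h := map_sum (tfB F y) u s
  exact h

/-- adjointness of `eD` -/
theorem tf_eD (h2 : (2 : F) = 0) (hP : PD σ σ') {d : I27 → F} (hd : d ∈ VD σ S T) (v : I27 → F) :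
    tf (eD σ' S T v) d = tf v d := by
  rw [mem_VD] at hd
  rw [eD_app, tf_sum_left]
  have h1 : ∀ (j : Fin 3) (i : Fin 7), tf (σ' (yw S T ^ (j : ℕ) * (S * T) ^ (i : ℕ)) v) d = tf v d := by
    intro j i
    have h3 : σ (yw S T ^ (j : ℕ) * (S * T) ^ (i : ℕ)) d = d := by
      rw [map_mul, Module.End.mul_apply, pow_fix hd.1, pow_fix hd.2]
    nth_rw 1 [← h3]
    rw [tf_comm, hP.htf, tf_comm]
  have h4 : ∀ j : Fin 3, tf (∑ i : Fin 7, σ' (yw S T ^ (j : ℕ) * (S * T) ^ (i : ℕ)) v) d = ∑ _i : Fin 7, tf v d := by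
    intro j
    rw [tf_sum_left]
    exact Finset.sum_congr rfl fun i _ => h1 j i
  rw [Finset.sum_congr rfl fun j _ => h4 j]
  simp only [Finset.sum_const, Finset.card_univ, Fintype.card_fin]
  rw [← mul_smul, ← Nat.cast_smul_eq_nsmul F]
  push_cast
  rw [smul_eq_mul]
  linear_combination (10 * tf v d) * h2

/-- the pairing of the lines fixed by the group of order 21 -/
theorem pair_VD (h : Dat ω σ σ' S T a) {d d' : I27 → F} (hd : d ∈ VD σ S T) (hd' : d' ∈ VD σ' S T) (h0 : d ≠ 0)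
    (h0' : d' ≠ 0) : tf d' d ≠ 0 := by
  intro h1
  apply h0
  refine tf_nondeg fun v => ?_
  rw [tf_comm, ← tf_eD h.h2 h.pd hd]
  have h2 : eD σ' S T v ∈ VD σ' S T := eD_mem h.ST7 h.y3 h.yz v
  have h3 : finrank F ↥(VD σ' S T) = 1 := by
    have h4 := h.half'.dimD
    have h5 : 0 < finrank F ↥(VD σ' S T) := by
      rw [Module.finrank_pos_iff_exists_ne_zero]
      exact ⟨⟨d', hd'⟩, fun h => h0' (congrArg Subtype.val h)⟩
    omega
  obtain ⟨c, hc⟩ := (finrank_eq_one_iff_of_nonzero' (⟨d', hd'⟩ : ↥(VD σ' S T))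
    (fun h => h0' (congrArg Subtype.val h))).1 h3 ⟨_, h2⟩
  have h4 : eD σ' S T v = c • d' := (congrArg Subtype.val hc).symm
  rw [h4, tf_smul_left, h1, mul_zero]

/-- the first vector of a family is fixed by `a` -/
theorem Fam.fix_a (hω : ω * ω = ω + 1) (h2 : (2 : F) = 0) (ha : ∀ v, σ (T * S * T⁻¹ * S⁻¹ * T) v = ω • σ a v)
    {f : Fin 21 → I27 → F} (hf : Fam ω σ S T f) : σ a (f 0) = f 0 := by
  have hω0 : ω ≠ 0 := by
    rintro rfl
    simp at hω
  have hω3 := Cfsg.Agent.H288.E6.S7B3.w3 h2 hω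
  have h1 : σ T (f 0) = f 6 := by
    rw [hf.t 0]
    show ω ^ 0 • f 6 = f 6
    rw [pow_zero, one_smul]
  have h3 : σ S⁻¹ (f 6) = f 10 := by
    have : σ S (f 10) = f 6 := hf.s 10
    rw [← this, inv_app]
  have h4 : σ T⁻¹ (f 10) = ω • f 5 := by
    have h5 : σ T (f 5) = ω ^ 2 • f 10 := hf.t 5
    have h6 : f 10 = ω • σ T (f 5) := by
      rw [h5, smul_smul, ← pow_succ', hω3, one_smul]
    rw [h6, map_smul, inv_app]
  have h7 : σ S (f 5) = f 1 := hf.s 5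
  have h8 : σ T (f 1) = f 0 := by
    rw [hf.t 1]
    show ω ^ 0 • f 0 = f 0
    rw [pow_zero, one_smul]
  have h9 := ha (f 0)
  simp only [mul_app] at h9
  rw [h1, h3, h4, map_smul, h7, map_smul, h8] at h9
  exact (smul_right_injective _ hω0 h9).symm

theorem Fam.memX (h2 : (2 : F) = 0) (hω : ω * ω = ω + 1) (hh : Half ω σ S T a)
    {f : Fin 21 → I27 → F} (hf : Fam ω σ S T f) : f 0 ∈ X σ S a :=
  mem_X.2 ⟨hf.s 0, hf.fix_a hω h2 hh.ha⟩

end
end Cfsg.Agent.H952.S7
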