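import Mathlib
import Cfsg.Agent.H952.S7.ED
import Cfsg.Agent.H401.S7B1

/-!
# Threefold cover of `A₇`, characteristic 2: the contradiction (helper952)
-/

set_option autoImplicit false

namespace Cfsg.Agent.H952.S7

open Cfsg Cfsg.Lie Module Matrix
open Cfsg.Agent.ChevalleyStructure.E6Min.Tables
open Cfsg.Agent.H952.F4 (ev es sh cr tf)
open Cfsg.Agent.H952.F4.Jord
open Cfsg.Agent.H163.E6 (TS)
open Cfsg.Agent.H905.E6T
open Cfsg.Agent.H288.E6.S7B3
open Cfsg.Agent.H401.S7B1 (Hm_fam Hm_fix Hm_eD hfix eD_zero lin_lin)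

universe u v

section
variable {F : Type u} [Field F] {G : Type*} [Group G] {ω : F} {σ σ' : Representation F G (I27 → F)} {S T a : G}

theorem dead (h : Dat ω σ σ' S T a) {x : Fin 21 → I27 → F} (hx : Fam ω σ S T x) (hH : HFix ω x) (h0 : x 0 ≠ 0)
    (hD : eD σ' S T (sh (x 0)) = 0) : False :=
  dead' h hx hH h0 (hfix h.h2 (w2 h.h2 h.hω) (fam_sh h.pd hx) hD)

theorem lin_tf_right (w : I27 → F) (c : Fin 21 → KF) (v : Fin 21 → I27 → F) :
    tf w (lin ω c v) = ∑ q, KF.io ω (c q) * tf w (v q) := by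
  unfold lin
  rw [tf_sum_right]
  exact Finset.sum_congr rfl fun q _ => by rw [tf_smul_right]

theorem lin_tf_left (w : I27 → F) (c : Fin 21 → KF) (v : Fin 21 → I27 → F) :
    tf (lin ω c v) w = ∑ q, KF.io ω (c q) * tf (v q) w := by
  unfold lin
  rw [tf_sum_left]
  exact Finset.sum_congr rfl fun q _ => by rw [tf_smul_left]

theorem HH (p q : Fin 21) : ∑ k, Hm p k * Hm k q = Hm p q := Cfsg.Agent.H401.S7B1.Hm_Hm p q

theorem Hconj : ∀ p q : Fin 21, Hm p q * Hm p q = Hm q p := by decide +kernel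

theorem io_HH (h2 : (2 : F) = 0) (hω : ω * ω = ω + 1) (p q : Fin 21) :
    ∑ k, KF.io ω (Hm p k) * KF.io ω (Hm k q) = KF.io ω (Hm p q) := by
  rw [← HH p q]
  show _ = KF.iota h2 hω _
  rw [map_sum]
  exact Finset.sum_congr rfl fun k _ => (map_mul (KF.iota h2 hω) _ _).symm

theorem io_conj (h2 : (2 : F) = 0) (hω : ω * ω = ω + 1) (p q : Fin 21) : KF.io (ω ^ 2) (Hm p q) = KF.io ω (Hm q p) := by
  rw [io_sq h2, ← Hconj p q, sq]
  exact (map_mul (KF.iota h2 hω) _ _).symm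

/-- adjointness of the Hecke operators -/
theorem adj (h2 : (2 : F) = 0) (hω : ω * ω = ω + 1) {u s : Fin 21 → I27 → F} {α β : F}
    (hg : ∀ p q, tf (s p) (u q) = α * (if p = q then 1 else 0) + β * KF.io ω (Hm q p)) (i j : Fin 21) :
    tf (lin (ω ^ 2) (Hm i) s) (u j) = (α + β) * KF.io ω (Hm j i) ∧ tf (s i) (lin ω (Hm j) u) = (α + β) * KF.io ω (Hm j i) := by
  constructor
  · rw [lin_tf_left]
    simp only [hg, io_conj h2 hω, mul_add, Finset.sum_add_distrib, mul_ite, mul_one, mul_zero,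
      Finset.sum_ite_eq', Finset.mem_univ, if_true]
    have h1 : ∑ q, KF.io ω (Hm q i) * (β * KF.io ω (Hm j q)) = β * KF.io ω (Hm j i) := by
      rw [← io_HH h2 hω j i, Finset.mul_sum]
      exact Finset.sum_congr rfl fun q _ => by ring
    rw [h1]; ring
  · rw [lin_tf_right]
    simp only [hg, mul_add, Finset.sum_add_distrib, mul_ite, mul_one, mul_zero,
      Finset.sum_ite_eq, Finset.mem_univ, if_true]
    have h1 : ∑ q, KF.io ω (Hm j q) * (β * KF.io ω (Hm q i)) = β * KF.io ω (Hm j i) := by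
      rw [← io_HH h2 hω j i, Finset.mul_sum]
      exact Finset.sum_congr rfl fun q _ => by ring
    rw [h1]; ring

theorem lin_add_right {M : Type*} [AddCommGroup M] [Module F M] (c : Fin 21 → KF) (v w : Fin 21 → M) :
    lin ω c (fun p => v p + w p) = lin ω c v + lin ω c w := by
  unfold lin
  rw [← Finset.sum_add_distrib]
  exact Finset.sum_congr rfl fun i _ => by rw [smul_add]

theorem self_add (h2 : (2 : F) = 0) {M : Type*} [AddCommGroup M] [Module F M] (m : M) : m + m = 0 := by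
  rw [← two_smul F m, h2, zero_smul]

/-- `1 + H` -/
theorem onePlus (h2 : (2 : F) = 0) (hω : ω * ω = ω + 1) {v : Fin 21 → I27 → F} (hv : Fam ω σ S T v) :
    Fam ω σ S T (fun p => v p + lin ω (Hm p) v) ∧ (∀ p, lin ω (Hm p) (fun p => v p + lin ω (Hm p) v) = 0) ∧
      eD σ S T (v 0 + lin ω (Hm 0) v) = eD σ S T (v 0) := by
  have h1 := Hm_fam h2 hω hv
  refine ⟨⟨fun p => ?_, fun p => ?_⟩, fun p => ?_, ?_⟩
  · show σ S (v p + lin ω (Hm p) v) = v (sp p) + lin ω (Hm (sp p)) v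
    rw [map_add, hv.s, h1.s p]
  · show σ T (v p + lin ω (Hm p) v) = _ • (v (tp p) + lin ω (Hm (tp p)) v)
    rw [map_add, hv.t, h1.t p, smul_add]
  · rw [lin_add_right, ← Hm_fix h2 hω v p, self_add h2]
  · rw [map_add, Hm_eD h2 hω hv, add_zero]

/-- the family of the products -/
theorem fam_cr (hP : PD σ σ') {x u : Fin 21 → I27 → F} (hx : Fam ω σ S T x) (hu : Fam ω σ S T u) :
    Fam (ω ^ 2) σ' S T (fun p => cr (x p) (u p)) where
  s p := by
    show σ' S (cr (x p) (u p)) = cr (x (sp p)) (u (sp p))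
    rw [← hP.hcr, hx.s, hu.s]
  t p := by
    show σ' T (cr (x p) (u p)) = (ω ^ 2) ^ nt p • cr (x (tp p)) (u (tp p))
    rw [← hP.hcr, hx.t, hu.t, cr_smul_left, cr_smul_right, smul_smul]
    congr 1
    ring

/-- right hand sides -/
def Rm (p : Fin 21) : KF :=
  ((if p = 0 then 1 else 0) + Hm 0 p) + ∑ j : Fin 6, Am p j * Am p j * ((if bas j = 0 then 1 else 0) + Hm 0 (bas j))

/-- the constant -/
def kap : KF := ∑ p, Bm 0 p * Rm p

theorem kap_unit : kap * kap * kap = 1 := by decide +kernel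

theorem io_kap (h2 : (2 : F) = 0) (hω : ω * ω = ω + 1) : KF.io ω kap ≠ 0 := by
  intro h
  have h1 := congrArg (KF.io ω) kap_unit
  rw [KF.io_mul h2 hω, h, mul_zero, KF.io_one] at h1
  exact zero_ne_one h1

theorem io_delta (p q : Fin 21) : KF.io ω (if p = q then 1 else 0) = if p = q then 1 else 0 := by
  split_ifs
  · exact KF.io_one
  · exact KF.io_zero

theorem io_sum (h2 : (2 : F) = 0) (hω : ω * ω = ω + 1) {ι : Type*} (s : Finset ι) (c : ι → KF) :
    KF.io ω (∑ i ∈ s, c i) = ∑ i ∈ s, KF.io ω (c i) :=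
  map_sum (KF.iota h2 hω) c s

/-- the cubic relation -/
theorem cub (h2 : (2 : F) = 0) (hω : ω * ω = ω + 1) {x : Fin 21 → I27 → F} (hH : HFix ω x) {u : I27 → F} {α : F}
    (hg : ∀ p, tf (sh (x p)) u = α * ((if p = 0 then 1 else 0) + KF.io ω (Hm 0 p))) :
    tf (cr (x 0) (x 11)) u = α * KF.io ω kap := by
  have h1 : ∀ p : Fin 21, ∑ m : Fin 15, KF.io ω (Cm p m) * tf (cr (x (bas (pj m))) (x (bas (pk m)))) u =
      α * KF.io ω (Rm p) := by
    intro p
    have a2 := sh_six (fun j => KF.io ω (Am p j)) (fun j => x (bas j))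
    rw [← HFix.coord h2 hω hH p] at a2
    have a3 := congrArg (fun v => tf v u) a2
    simp only [tf_add_left, tf_sum_left, tf_smul_left, hg] at a3
    have a4 : ∑ m : Fin 15, KF.io ω (Cm p m) * tf (cr (x (bas (pj m))) (x (bas (pk m)))) u =
        ∑ m : Fin 15, KF.io ω (Am p (pj m)) * KF.io ω (Am p (pk m)) * tf (cr (x (bas (pj m))) (x (bas (pk m)))) u := by
      refine Finset.sum_congr rfl fun m _ => ?_
      rw [show KF.io ω (Cm p m) = KF.io ω (Am p (pj m)) * KF.io ω (Am p (pk m)) from KF.io_mul h2 hω _ _]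
    have a5 : KF.io ω (Rm p) = ((if p = 0 then 1 else 0) + KF.io ω (Hm 0 p)) +
        ∑ j : Fin 6, KF.io ω (Am p j) ^ 2 * ((if bas j = 0 then 1 else 0) + KF.io ω (Hm 0 (bas j))) := by
      unfold Rm
      rw [KF.io_add h2, KF.io_add h2, io_sum h2 hω, io_delta]
      congr 1
      refine Finset.sum_congr rfl fun j _ => ?_
      rw [KF.io_mul h2 hω, KF.io_mul h2 hω, KF.io_add h2, io_delta, sq]
    have a6 : ∑ j : Fin 6, KF.io ω (Am p j) ^ 2 * (α * ((if bas j = 0 then 1 else 0) + KF.io ω (Hm 0 (bas j)))) =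
        α * ∑ j : Fin 6, KF.io ω (Am p j) ^ 2 * ((if bas j = 0 then 1 else 0) + KF.io ω (Hm 0 (bas j))) := by
      rw [Finset.mul_sum]
      exact Finset.sum_congr rfl fun j _ => by ring
    rw [a4, a5]
    rw [a6] at a3
    linear_combination -a3 - (α * ∑ j : Fin 6, KF.io ω (Am p j) ^ 2 *
      ((if bas j = 0 then 1 else 0) + KF.io ω (Hm 0 (bas j)))) * h2
  have h3 : ∀ m : Fin 15, ∑ p, KF.io ω (Bm 0 p) * KF.io ω (Cm p m) = if m = 0 then 1 else 0 := by
    intro m
    have b1 : (Bm * Cm) 0 m = (1 : Matrix (Fin 15) (Fin 15) KF) 0 m := by rw [Bm_Cm]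
    rw [Matrix.mul_apply, Matrix.one_apply] at b1
    have b2 := congrArg (KF.io ω) b1
    rw [io_sum h2 hω] at b2
    have b3 : KF.io ω (if (0 : Fin 15) = m then (1 : KF) else 0) = if m = 0 then 1 else 0 := by
      by_cases hm : m = 0
      · rw [if_pos hm.symm, if_pos hm, KF.io_one]
      · rw [if_neg (Ne.symm hm), if_neg hm, KF.io_zero]
    rw [b3] at b2
    rw [← b2]
    exact Finset.sum_congr rfl fun p _ => (KF.io_mul h2 hω _ _).symm
  have h4 : ∑ p, KF.io ω (Bm 0 p) * (∑ m : Fin 15, KF.io ω (Cm p m) * tf (cr (x (bas (pj m))) (x (bas (pk m)))) u) =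
      α * KF.io ω kap := by
    simp only [h1]
    unfold kap
    rw [io_sum h2 hω, Finset.mul_sum]
    exact Finset.sum_congr rfl fun p _ => by rw [KF.io_mul h2 hω]; ring
  rw [← h4]
  simp only [Finset.mul_sum]
  rw [Finset.sum_comm]
  have h5 : ∀ m : Fin 15, ∑ p, KF.io ω (Bm 0 p) * (KF.io ω (Cm p m) * tf (cr (x (bas (pj m))) (x (bas (pk m)))) u) =
      (if m = 0 then 1 else 0) * tf (cr (x (bas (pj m))) (x (bas (pk m)))) u := by
    intro m
    rw [← h3 m, Finset.sum_mul]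
    exact Finset.sum_congr rfl fun p _ => by ring
  simp only [h5]
  simp only [ite_mul, one_mul, zero_mul, Finset.sum_ite_eq', Finset.mem_univ, if_true]
  rfl

end
end Cfsg.Agent.H952.S7
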