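import Mathlib
import Cfsg.Agent.H952.S7.B5

/-!
# Threefold cover of `A₇`, characteristic 2: the contradiction (helper952)
-/

set_option autoImplicit false

namespace Cfsg.Agent.H952.S7

open Cfsg Cfsg.Lie Module Matrix
open Cfsg.Agent.ChevalleyStructure.E6Min.Tables
open Cfsg.Agent.H952.F4 (ev es sh cr tf)
open Cfsg.Agent.H952.F4.Jord
open Cfsg.Agent.H163.E6 (TS)
open Cfsg.Agent.H905.E6T
open Cfsg.Agent.H288.E6.S7B3
open Cfsg.Agent.H401.S7B1 (Hm_fam Hm_fix Hm_eD hfix eD_zero lin_lin r0)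

universe u v

section
variable {F : Type u} [Field F] {G : Type*} [Group G] {ω : F} {σ σ' : Representation F G (I27 → F)} {S T a : G}

/-- a subspace of dimension at most 2 with a nonzero vector in the kernel of `D` and one outside -/
theorem span_pair {V : Type*} [AddCommGroup V] [Module F V] {M : Submodule F V} [FiniteDimensional F M] {x u : V}
    (D : V →ₗ[F] V) (hx : x ∈ M) (hu : u ∈ M) (x0 : x ≠ 0) (hDx : D x = 0) (hDu : D u ≠ 0) (hM : finrank F M ≤ 2) :
    M = Submodule.span F {x, u} := by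
  have hli : LinearIndependent F ![x, u] := by
    rw [LinearIndependent.pair_iff]
    intro s t h
    have h1 := congrArg D h
    rw [map_add, map_smul, map_smul, hDx, smul_zero, zero_add, map_zero] at h1
    have ht := (smul_eq_zero.1 h1).resolve_right hDu
    rw [ht, zero_smul, add_zero] at h
    exact ⟨(smul_eq_zero.1 h).resolve_right x0, ht⟩
  have h1 := finrank_span_eq_card hli
  rw [Matrix.range_cons, Matrix.range_cons, Matrix.range_empty, Set.union_empty, Set.singleton_union,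
    Fintype.card_fin] at h1
  have h2 : Submodule.span F {x, u} ≤ M := by
    rw [Submodule.span_le]
    rintro v (rfl | rfl)
    · exact hx
    · exact hu
  exact (Submodule.eq_of_le_of_finrank_le h2 (by omega)).symm

/-- the vectors `v` of `X` with `eD v = 0` -/
theorem prop_of (h : Dat ω σ σ' S T a) (hsq : ∀ c : F, ∃ d, d ^ 2 = c) {x y : I27 → F} (hx : x ∈ X σ S a)
    (hy : y ∈ X σ S a) (hex : eD σ S T x = 0) (hey : eD σ S T y = 0) (x0 : x ≠ 0) : ∃ c : F, c • x = y := by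
  have h2 := h.h2
  have hω := h.hω
  obtain ⟨f, rfl, hf⟩ := h.half.fam x (mem_X.1 hx).1 (mem_X.1 hx).2
  obtain ⟨g, rfl, hg⟩ := h.half.fam y (mem_X.1 hy).1 (mem_X.1 hy).2
  have hfH := hfix h2 hω hf hex
  have hgH := hfix h2 hω hg hey
  have hD : ∀ v, eD σ' S T v ∈ VD σ' S T := eD_mem h.ST7 h.y3 h.yz
  have hcr := eD_cr h hf hg hfH hgH hD
  set P := eD σ' S T (sh (f 0)) with hP
  set Q := eD σ' S T (sh (g 0)) with hQ
  have h3 : ∃ a' b' : F, (a' ≠ 0 ∨ b' ≠ 0) ∧ a' • P + b' • Q = 0 := by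
    by_cases hP0 : P = 0
    · exact ⟨1, 0, Or.inl one_ne_zero, by rw [hP0, smul_zero, zero_smul, add_zero]⟩
    have h4 : finrank F ↥(VD σ' S T) = 1 := by
      have h5 := h.half'.dimD
      have h6 : 0 < finrank F ↥(VD σ' S T) := by
        rw [Module.finrank_pos_iff_exists_ne_zero]
        exact ⟨⟨P, hD _⟩, fun h => hP0 (congrArg Subtype.val h)⟩
      omega
    obtain ⟨c, hc⟩ := (finrank_eq_one_iff_of_nonzero' (⟨P, hD _⟩ : ↥(VD σ' S T))
      (fun h => hP0 (congrArg Subtype.val h))).1 h4 ⟨Q, hD _⟩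
    have h5 : c • P = Q := congrArg Subtype.val hc
    exact ⟨-c, 1, Or.inr one_ne_zero, by rw [← h5, one_smul, neg_smul, neg_add_cancel]⟩
  obtain ⟨a', b', hab, h4⟩ := h3
  obtain ⟨a1, rfl⟩ := hsq a'
  obtain ⟨b1, rfl⟩ := hsq b'
  have h5 : a1 • f 0 + b1 • g 0 = 0 := by
    by_contra hv0
    have hv : a1 • f 0 + b1 • g 0 ∈ X σ S a := Submodule.add_mem _ (Submodule.smul_mem _ _ hx) (Submodule.smul_mem _ _ hy)
    have hev : eD σ S T (a1 • f 0 + b1 • g 0) = 0 := by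
      rw [map_add, map_smul, map_smul, hex, hey, smul_zero, smul_zero, add_zero]
    obtain ⟨k, hk0, hk⟩ := h.half.fam _ (mem_X.1 hv).1 (mem_X.1 hv).2
    rw [← hk0] at hv0 hev
    refine dead h hk (hfix h2 hω hk hev) hv0 ?_
    rw [hk0, sh_add, sh_smul, sh_smul, cr_smul_left, cr_smul_right, map_add, map_add, map_smul, map_smul, map_smul,
      map_smul, hcr, smul_zero, smul_zero, add_zero]
    exact h4
  by_cases hb : b1 = 0
  · exfalso
    rw [hb, zero_smul, add_zero] at h5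
    have ha := (smul_eq_zero.1 h5).resolve_right x0
    rcases hab with h6 | h6
    · exact h6 (by rw [ha]; ring)
    · exact h6 (by rw [hb]; ring)
  · refine ⟨-(b1⁻¹ * a1), ?_⟩
    have h6 : b1⁻¹ • (a1 • f 0 + b1 • g 0) = 0 := by rw [h5, smul_zero]
    rw [smul_add, smul_smul, smul_smul, inv_mul_cancel₀ hb, one_smul] at h6
    rw [neg_smul]
    exact neg_eq_of_add_eq_zero_right h6

/-- the restriction of `eD` to `X` -/
theorem dim_X (h : Dat ω σ σ' S T a) (hsq : ∀ c : F, ∃ d, d ^ 2 = c) :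
    finrank F ↥(X σ S a) ≤ 2 ∧ (finrank F ↥(X σ S a) = 2 → (∃ x ∈ X σ S a, x ≠ 0 ∧ eD σ S T x = 0) ∧
      ∃ u ∈ X σ S a, eD σ S T u ≠ 0) := by
  let φ : ↥(X σ S a) →ₗ[F] ↥(VD σ S T) :=
    ((eD σ S T).codRestrict (VD σ S T) (eD_mem h.ST7 h.y3 h.yz)) ∘ₗ (X σ S a).subtype
  have h1 := LinearMap.finrank_range_add_finrank_ker φ
  have h2 : finrank F (LinearMap.range φ) ≤ 1 := (Submodule.finrank_le _).trans h.half.dimD
  have hk : ∀ v : ↥(X σ S a), v ∈ LinearMap.ker φ ↔ eD σ S T v = 0 := by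
    intro v
    rw [LinearMap.mem_ker]
    exact ⟨fun h => congrArg Subtype.val h, fun h => Subtype.ext h⟩
  have h3 : finrank F (LinearMap.ker φ) ≤ 1 := by
    by_cases h4 : LinearMap.ker φ = ⊥
    · rw [h4, finrank_bot]; omega
    · obtain ⟨x, hxk, hx0⟩ := Submodule.exists_mem_ne_zero_of_ne_bot h4
      refine finrank_le_one (⟨x, hxk⟩ : ↥(LinearMap.ker φ)) fun w => ?_
      obtain ⟨w, hwk⟩ := w
      obtain ⟨c, hc⟩ := prop_of h hsq x.2 w.2 ((hk x).1 hxk) ((hk w).1 hwk) (fun h => hx0 (Subtype.ext h))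
      exact ⟨c, Subtype.ext (Subtype.ext hc)⟩
  refine ⟨by omega, fun h4 => ⟨?_, ?_⟩⟩
  · have h5 : LinearMap.ker φ ≠ ⊥ := by
      intro h6
      rw [h6, finrank_bot] at h1
      omega
    obtain ⟨x, hxk, hx0⟩ := Submodule.exists_mem_ne_zero_of_ne_bot h5
    exact ⟨x, x.2, fun h => hx0 (Subtype.ext h), (hk x).1 hxk⟩
  · by_contra hne
    push Not at hne
    have h5 : LinearMap.ker φ = ⊤ := by
      rw [eq_top_iff]
      intro v _
      exact (hk v).2 (hne v v.2)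
    rw [h5, finrank_top] at h3
    omega

/-- the case `dim X = 2` -/
theorem no_two (h : Dat ω σ σ' S T a) (hsq : ∀ c : F, ∃ d, d ^ 2 = c) (hX : finrank F ↥(X σ S a) = 2) : False := by
  have h2 := h.h2
  have hω := h.hω
  have h2' := w2 h2 hω
  obtain ⟨⟨x0, hx0, hx00, hex⟩, u0, hu0, heu⟩ := (dim_X h hsq).2 hX
  obtain ⟨x, rfl, hx⟩ := h.half.fam x0 (mem_X.1 hx0).1 (mem_X.1 hx0).2
  have hH := hfix h2 hω hx hex
  obtain ⟨u', rfl, hu'⟩ := h.half.fam u0 (mem_X.1 hu0).1 (mem_X.1 hu0).2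
  obtain ⟨hu, hHu, heu'⟩ := onePlus h2 hω hu'
  rw [← heu'] at heu
  set u : Fin 21 → I27 → F := fun p => u' p + lin ω (Hm p) u' with hud
  have heu1 : eD σ S T (u 0) ≠ 0 := heu
  have hs := fam_sh h.pd hx
  set s : Fin 21 → I27 → F := fun p => sh (x p) with hsd
  obtain ⟨hp, hHp, hep⟩ := onePlus h2 h2' hs
  set p : Fin 21 → I27 → F := fun i => s i + lin (ω ^ 2) (Hm i) s with hpd
  have hep1 : eD σ' S T (p 0) ≠ 0 := by
    intro h0
    exact dead h hx hH hx00 (hep.symm.trans h0)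
  have hz := fam_cr h.pd hx hu
  set z : Fin 21 → I27 → F := fun i => cr (x i) (u i) with hzd
  have hy := Hm_fam h2 h2' hz
  have hyH : HFix (ω ^ 2) (fun i => lin (ω ^ 2) (Hm i) z) := Hm_fix h2 h2' z
  have hey : eD σ' S T (lin (ω ^ 2) (Hm 0) z) = 0 := Hm_eD h2 h2' hz
  set y : Fin 21 → I27 → F := fun i => lin (ω ^ 2) (Hm i) z with hyd
  have e11 : KF.io ω (Hm 11 0) ≠ 0 := by
    rw [show Hm 11 0 = KF.mk 3 by decide +kernel, KF.io_three]
    intro h0
    have h3 : ω = -1 := by linear_combination h0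
    rw [h3] at hω
    have : (1 : F) = 0 := by linear_combination hω
    exact one_ne_zero this
  -- `p` and `x`
  have hpx : ∀ i j, tf (p i) (x j) = 0 := by
    obtain ⟨α, β, hg⟩ := gram h2 hω h.pd hx hp
    intro i j
    obtain ⟨h3, h4⟩ := adj h2 hω hg i j
    rw [hHp i, tf_zero_left] at h3
    rw [← hH j, ← h3] at h4
    exact h4
  -- `y` and `u`
  have hyu : ∀ i j, tf (y i) (u j) = 0 := by
    obtain ⟨α, β, hg⟩ := gram h2 hω h.pd hu hy
    intro i j
    obtain ⟨h3, h4⟩ := adj h2 hω hg i j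
    rw [hHu j, tf_comm, tf_zero_left] at h4
    rw [← hyH i, ← h4] at h3
    exact h3
  -- `y` and `x`
  obtain ⟨β', hyx⟩ : ∃ β' : F, ∀ i j, tf (y i) (x j) = β' * KF.io ω (Hm j i) := by
    obtain ⟨α, β, hg⟩ := gram h2 hω h.pd hx hy
    refine ⟨α + β, fun i j => ?_⟩
    have h3 := (adj h2 hω hg i j).1
    rw [← hyH i] at h3
    exact h3
  -- `s` and `u`
  obtain ⟨α, hsu⟩ : ∃ α : F, ∀ i j, tf (s i) (u j) = α * ((if i = j then 1 else 0) + KF.io ω (Hm j i)) := by
    obtain ⟨α, β, hg⟩ := gram h2 hω h.pd hu hs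
    have h3 := (adj h2 hω hg 0 11).2
    rw [hHu 11, tf_comm, tf_zero_left] at h3
    have h4 := (mul_eq_zero.1 h3.symm).resolve_right e11
    refine ⟨α, fun i j => ?_⟩
    rw [hg, show β = α by linear_combination h4 - α * h2]
    ring
  -- `p` and `u`
  have hpu : ∀ i j, tf (p i) (u j) = α * ((if i = j then 1 else 0) + KF.io ω (Hm j i)) := by
    intro i j
    obtain ⟨α1, β1, hg⟩ := gram h2 hω h.pd hu hs
    obtain ⟨h3, h4⟩ := adj h2 hω hg i j
    rw [hHu j, tf_comm, tf_zero_left] at h4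
    rw [hpd]
    show tf (s i + lin (ω ^ 2) (Hm i) s) (u j) = _
    rw [tf_add_left, h3, ← h4, add_zero, hsu]
  have hα : α ≠ 0 := by
    rintro rfl
    have h3 := pair_VD h (eD_mem h.ST7 h.y3 h.yz (u 0)) (eD_mem h.ST7 h.y3 h.yz (p 0)) heu1 hep1
    apply h3
    rw [tf_eD h2 h.pd (eD_mem h.ST7 h.y3 h.yz (u 0)), eD_zero h2 hω hu, lin_tf_right]
    refine Finset.sum_eq_zero fun q _ => ?_
    rw [hpu, zero_mul, mul_zero]
  have hβ : β' ≠ 0 := by
    rintro rfl
    obtain ⟨α1, β1, hg⟩ := gram h2 hω h.pd hx hz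
    obtain ⟨h3, h4⟩ := adj h2 hω hg 0 11
    rw [← hH 11, ← h3] at h4
    have h5 : tf (y 0) (x 11) = 0 := by rw [hyx, zero_mul]
    have h6 : tf (z 0) (x 11) = 0 := h4.trans h5
    have h7 := cub h2 hω hH (u := u 0) (α := α) (fun q => by rw [← hsu q 0])
    have h8 : tf (cr (x 0) (x 11)) (u 0) = 0 := by
      rw [cr_comm, tf_cr, tf_comm]
      exact h6
    rw [h8] at h7
    exact (mul_ne_zero hα (io_kap h2 hω)) h7.symm
  -- `X` and `X'`
  have hy0 : y 0 ≠ 0 := by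
    intro h0
    have h3 := hyx 0 11
    rw [h0, tf_zero_left] at h3
    exact mul_ne_zero hβ e11 h3.symm
  have hXe : X σ S a = Submodule.span F {x 0, u 0} :=
    span_pair (eD σ S T) hx0 (hu.memX h2 hω h.half) hx00 hex heu1 hX.le
  have hXe' : X σ' S a = Submodule.span F {y 0, p 0} :=
    span_pair (eD σ' S T) (hy.memX h2 h2' h.half') (hp.memX h2 h2' h.half') hy0 hey hep1 (dim_X h.symm hsq).1
  exact Cfsg.Agent.H911.S7.rstep h hx hu hy hp hα hβ (H := fun j q => KF.io ω (Hm j q))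
    (H' := fun j q => KF.io (ω ^ 2) (Hm j q)) hpu hyx hpx hyu (fun j => (hH j).symm) hHu (fun j => (hyH j).symm) hHp
    hXe hXe'

/-- the contradiction -/
theorem Dat.false (h : Dat ω σ σ' S T a) (hsq : ∀ c : F, ∃ d, d ^ 2 = c) : False := by
  have h1 := (dim_X h hsq).1
  have h2 := (dim_X h.symm hsq).1
  have h3 := h.dimX
  by_cases h4 : finrank F ↥(X σ S a) = 2
  · exact no_two h hsq h4
  · exact no_two h.symm hsq (by omega)

end
end Cfsg.Agent.H952.S7
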